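import Cfsg.Agent.Lib.InvChar.HallJankoSylow.Quot

/-!
The Sylow `5`-subgroups of a group of Hall–Janko type.
-/

set_option autoImplicit false
set_option linter.style.haveILetI false
set_option linter.unusedSectionVars false

open Cfsg

namespace CfsgLib.InvChar.HJSylow

variable {G : Type*} [Group G] [Finite G]

/-- The order of a Sylow subgroup from a factorisation of the group order. -/
theorem sylow_card {p k m : ℕ} [hp : Fact p.Prime] (P : Sylow p G) (hG : Nat.card G = p ^ k * m)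
    (hm : ¬ p ∣ m) : Nat.card (P : Subgroup G) = p ^ k := by
  obtain ⟨j, hj⟩ := IsPGroup.iff_card.1 P.2
  have h := (P : Subgroup G).card_mul_index
  rw [hj, hG] at h
  have hcop : ∀ a i : ℕ, ¬ p ∣ a → Nat.Coprime (p ^ i) a := fun a i ha =>
    ((hp.out.coprime_iff_not_dvd).2 ha).pow_left i
  refine hj.trans (Nat.dvd_antisymm ?_ ?_)
  · exact (hcop m j hm).dvd_of_dvd_mul_right (h ▸ dvd_mul_right _ _)
  · exact (hcop _ k P.not_dvd_index).dvd_of_dvd_mul_right (h.symm ▸ dvd_mul_right _ _)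

/-- Orbit and stabilizer for conjugation by a subgroup. -/
theorem card_conj_orbit (N : Subgroup G) (g : G) :
    Nat.card N = Nat.card ↥(N ⊓ cent g) * Nat.card {x : G // ∃ n ∈ N, n * g * n⁻¹ = x} := by
  let H := (N ⊓ cent g).subgroupOf N
  have hH : Nat.card H = Nat.card ↥(N ⊓ cent g) :=
    Nat.card_congr (Subgroup.subgroupOfEquivOfLe inf_le_left).toEquiv
  have hiff : ∀ a b : N, a⁻¹ * b ∈ H ↔ (a : G) * g * (a : G)⁻¹ = b * g * (b : G)⁻¹ := by
    intro a b
    rw [Subgroup.mem_subgroupOf, Subgroup.mem_inf, mem_cent]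
    constructor
    · rintro ⟨-, h⟩
      have h' : (a : G)⁻¹ * b * g = g * ((a : G)⁻¹ * b) := h
      calc (a : G) * g * (a : G)⁻¹ = a * (g * ((a : G)⁻¹ * b)) * (b : G)⁻¹ := by group
        _ = a * ((a : G)⁻¹ * b * g) * (b : G)⁻¹ := by rw [h']
        _ = b * g * (b : G)⁻¹ := by group
    · intro h
      refine ⟨(a⁻¹ * b).2, ?_⟩
      change (a : G)⁻¹ * b * g = g * ((a : G)⁻¹ * b)
      calc (a : G)⁻¹ * b * g = (a : G)⁻¹ * (b * g * (b : G)⁻¹) * b := by group
        _ = (a : G)⁻¹ * (a * g * (a : G)⁻¹) * b := by rw [h]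
        _ = g * ((a : G)⁻¹ * b) := by group
  let f : N ⧸ H → {x : G // ∃ n ∈ N, n * g * n⁻¹ = x} :=
    Quotient.lift (fun n : N => (⟨(n : G) * g * (n : G)⁻¹, n, n.2, rfl⟩ :
      {x : G // ∃ n ∈ N, n * g * n⁻¹ = x}))
      (fun a b hab => Subtype.ext ((hiff a b).1 (QuotientGroup.leftRel_apply.1 hab)))
  have hf : Function.Bijective f := by
    constructor
    · intro x y
      induction x using QuotientGroup.induction_on with
      | _ a =>
        induction y using QuotientGroup.induction_on with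
        | _ b =>
          intro h
          exact QuotientGroup.eq.2 ((hiff a b).2 (congrArg Subtype.val h))
    · rintro ⟨_, n, hn, rfl⟩
      exact ⟨QuotientGroup.mk ⟨n, hn⟩, rfl⟩
  rw [Subgroup.card_eq_card_quotient_mul_card_subgroup H, hH, Nat.card_eq_of_bijective f hf,
    mul_comm]

namespace Setting

variable {z t : G} {Q : Subgroup G} (S : Setting z t Q)
include S

theorem card_five (P : Sylow 5 G) : Nat.card (P : Subgroup G) = 25 := by
  haveI : Fact (Nat.Prime 5) := ⟨Nat.prime_five⟩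
  have h := sylow_card (k := 2) (m := 24192) P (by rw [S.card]; norm_num) (by norm_num)
  rw [h]; norm_num

theorem comm_five (P : Sylow 5 G) {a b : G} (ha : a ∈ (P : Subgroup G))
    (hb : b ∈ (P : Subgroup G)) : a * b = b * a := by
  haveI : Fact (Nat.Prime 5) := ⟨Nat.prime_five⟩
  exact congrArg Subtype.val (((IsPGroup.isMulCommutative_of_card_eq_prime_sq
    (G := (P : Subgroup G)) (p := 5) (by rw [S.card_five]; norm_num))).is_comm.comm ⟨a, ha⟩ ⟨b, hb⟩)

theorem exists_g : ∃ g ∈ cent t, orderOf g = 5 := by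
  haveI : Fact (Nat.Prime 5) := ⟨Nat.prime_five⟩
  obtain ⟨g, hg⟩ := exists_prime_orderOf_dvd_card' (G := cent t) 5 (by rw [S.card_cent_t]; norm_num)
  exact ⟨g, g.2, by rw [Subgroup.orderOf_coe]; exact hg⟩

theorem exists_conj_sylow_five (P : Sylow 5 G) {w : G} (hw : w ^ 5 = 1) :
    ∃ c : G, c * w * c⁻¹ ∈ (P : Subgroup G) := by
  haveI : Fact (Nat.Prime 5) := ⟨Nat.prime_five⟩
  obtain ⟨c, -, hc⟩ := exists_conj_mem (p := 5) (k := 2) (j := 1) (K := (⊤ : Subgroup G))
    (Subgroup.mem_top w) (by rw [pow_one]; exact hw) le_top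
    (by rw [S.card_five P]; norm_num) (by rw [Subgroup.card_top, S.card]; norm_num)
  exact ⟨c, hc⟩

/-- The centralizer of an element of order five commuting with `t`. -/
theorem five_cases {g : G} (hg : orderOf g = 5) (hc : g ∈ cent t) :
    Nat.card ↥(cent g) = 300 ∧ ∃ φ : ↥(cent g) →* alternatingGroup (Fin 5),
      Function.Surjective φ ∧ ∀ c, φ c = 1 ↔ (c : G) ∈ Subgroup.zpowers g := by
  have hd : 25 ∣ Nat.card ↥(cent g) := by
    obtain ⟨P⟩ : Nonempty (Sylow 5 G) := inferInstance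
    obtain ⟨c, hcm⟩ := S.exists_conj_sylow_five P (hg ▸ pow_orderOf_eq_one g : g ^ 5 = 1)
    rw [← card_cent_conj c g, ← S.card_five P]
    exact Subgroup.card_dvd_of_le fun x hx => mem_cent.2 (S.comm_five P hx hcm)
  rcases S.t_cases (Or.inr rfl) hg hc with h | h | ⟨φ, hφ, hk⟩
  · rw [h] at hd; norm_num at hd
  · rw [h] at hd; norm_num at hd
  · refine ⟨?_, φ, hφ, hk⟩
    have hker : Nat.card φ.ker = 5 := by
      refine Eq.trans ?_ ((Nat.card_zpowers g).trans hg)
      exact Nat.card_congr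
        { toFun := fun x => ⟨((x : cent g) : G), (hk _).1 x.2⟩
          invFun := fun x => ⟨⟨x, Subgroup.zpowers_le.2 (self_mem_cent g) x.2⟩, (hk _).2 x.2⟩
          left_inv := fun x => rfl
          right_inv := fun x => rfl }
    rw [← φ.ker.card_mul_index, Subgroup.index_ker, MonoidHom.range_eq_top.2 hφ, Subgroup.card_top,
      hker, card_alt_five]

/-- A Sylow `5`-subgroup through an element commuting with `t`. -/
theorem five_local (P : Sylow 5 G) {g : G} (hg : orderOf g = 5) (hc : g ∈ cent t)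
    (hgP : g ∈ (P : Subgroup G)) :
    Subgroup.centralizer ((P : Subgroup G) : Set G) = P ∧
    Nat.card ↥(Subgroup.normalizer ((P : Subgroup G) : Set G) ⊓ cent g) = 50 ∧
    ∃ n ∈ Subgroup.normalizer ((P : Subgroup G) : Set G), n * g * n⁻¹ ≠ g := by
  haveI : Fact (Nat.Prime 5) := ⟨Nat.prime_five⟩
  obtain ⟨h300, φ, hφ, hk⟩ := S.five_cases hg hc
  have hPC : (P : Subgroup G) ≤ cent g := fun x hx => mem_cent.2 (S.comm_five P hx hgP)
  obtain ⟨h, hhP, hhg⟩ : ∃ h ∈ (P : Subgroup G), h ∉ Subgroup.zpowers g := by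
    by_contra hno
    push Not at hno
    have := Subgroup.card_le_of_le (fun x hx => hno x hx : (P : Subgroup G) ≤ Subgroup.zpowers g)
    rw [S.card_five, Nat.card_zpowers, hg] at this
    omega
  have hord : orderOf (φ ⟨h, hPC hhP⟩) = 5 := by
    have h1 : orderOf (φ ⟨h, hPC hhP⟩) ∣ 5 := by
      have h2 : orderOf h ∣ 5 ^ 2 := by
        have := Subgroup.orderOf_dvd_natCard _ hhP
        rwa [S.card_five] at this
      have h3 : orderOf (φ ⟨h, hPC hhP⟩) ∣ 5 ^ 2 :=
        (orderOf_map_dvd φ _).trans ((Subgroup.orderOf_mk h (hPC hhP)).symm ▸ h2)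
      have h4 : orderOf (φ ⟨h, hPC hhP⟩) ∣ 60 := card_alt_five ▸ orderOf_dvd_natCard _
      exact (Nat.dvd_gcd h3 h4).trans (by norm_num)
    rcases Nat.prime_five.eq_one_or_self_of_dvd _ h1 with h2 | h2
    · exact absurd ((hk _).1 (orderOf_eq_one_iff.1 h2)) hhg
    · exact h2
  have hcent : Subgroup.centralizer ((P : Subgroup G) : Set G) = P := by
    refine le_antisymm (fun c hc' => ?_) fun x hx => Subgroup.mem_centralizer_iff.2
      fun y hy => S.comm_five P hy hx
    have hcg : c ∈ cent g := mem_cent.2 (Subgroup.mem_centralizer_iff.1 hc' g hgP).symm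
    have hz : Subgroup.zpowers (φ ⟨h, hPC hhP⟩) = cent (φ ⟨h, hPC hhP⟩) := by
      refine Subgroup.eq_of_le_of_card_ge (Subgroup.zpowers_le.2 (self_mem_cent _)) ?_
      refine le_of_eq ((Nat.card_congr (Equiv.subtypeEquivRight fun b => mem_cent)).trans
        ((alt_five_cent_card (Or.inr rfl) hord).trans ((Nat.card_zpowers _).trans hord).symm))
    have hm : φ ⟨c, hcg⟩ ∈ cent (φ ⟨h, hPC hhP⟩) := by
      rw [mem_cent, ← map_mul, ← map_mul]
      exact congrArg φ (Subtype.ext (Subgroup.mem_centralizer_iff.1 hc' h hhP).symm)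
    rw [← hz] at hm
    obtain ⟨i, hi⟩ := hm
    change φ ⟨h, hPC hhP⟩ ^ i = φ ⟨c, hcg⟩ at hi
    have h1 : φ (⟨h, hPC hhP⟩ ^ (-i) * ⟨c, hcg⟩) = 1 := by
      rw [map_mul, map_zpow, ← hi, ← zpow_add, neg_add_cancel, zpow_zero]
    have h2 : h ^ (-i) * c ∈ (P : Subgroup G) :=
      Subgroup.zpowers_le.2 hgP ((hk _).1 h1)
    have h3 := Subgroup.mul_mem _ ((P : Subgroup G).zpow_mem hhP i) h2
    rwa [← mul_assoc, ← zpow_add, add_neg_cancel, zpow_zero, one_mul] at h3
  obtain ⟨n, hn1, hcard⟩ := exists_count (p := 5) (k := 2) hPC (by rw [S.card_five]; norm_num)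
    (by rw [h300]; norm_num)
  rw [inf_comm] at hcard
  refine ⟨hcent, ?_, ?_⟩
  · rw [h300] at hcard
    have hd : 25 ∣ Nat.card ↥(Subgroup.normalizer ((P : Subgroup G) : Set G) ⊓ cent g) := by
      rw [← S.card_five P]
      exact Subgroup.card_dvd_of_le (le_inf Subgroup.le_normalizer hPC)
    obtain ⟨a, ha⟩ := hd
    rw [ha] at hcard ⊢
    have hn12 : n ∣ 12 := ⟨a, by
      have : 25 * 12 = 25 * (n * a) := by rw [show 25 * 12 = 300 from rfl, hcard]; ring
      omega⟩
    have hn1' : n ≠ 1 := by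
      rintro rfl
      have hle : cent g ≤ Subgroup.normalizer ((P : Subgroup G) : Set G) := by
        refine le_trans ?_ (inf_le_left : Subgroup.normalizer ((P : Subgroup G) : Set G) ⊓ cent g ≤ _)
        refine (Subgroup.eq_of_le_of_card_ge inf_le_right ?_).ge
        rw [h300, ha]
        omega
      let R := ((P : Subgroup G).subgroupOf (cent g)).map φ
      have hR : R.Normal := by
        refine Subgroup.Normal.map ⟨fun x hx c => ?_⟩ φ hφ
        rw [Subgroup.mem_subgroupOf] at hx ⊢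
        exact (Subgroup.mem_normalizer_iff.1 (hle c.2) _).1 hx
      rcases hR.eq_bot_or_eq_top with h1 | h1
      · have : φ ⟨h, hPC hhP⟩ ∈ R := ⟨⟨h, hPC hhP⟩, hhP, rfl⟩
        rw [h1, Subgroup.mem_bot] at this
        rw [this, orderOf_one] at hord
        exact absurd hord (by norm_num)
      · have h2 : Nat.card R ∣ Nat.card ((P : Subgroup G).subgroupOf (cent g)) :=
          Subgroup.card_map_dvd _ _
        rw [h1, Subgroup.card_top, card_alt_five,
          Nat.card_congr (Subgroup.subgroupOfEquivOfLe hPC).toEquiv, S.card_five] at h2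
        norm_num at h2
    have hle := Nat.le_of_dvd (by norm_num) hn12
    interval_cases n <;> omega
  · obtain ⟨n₀, -, hn₀, hne⟩ := S.exists_mover (Or.inr rfl) (Or.inr rfl) hg hc
    have hgn : n₀ * g * n₀⁻¹ ∈ Subgroup.zpowers g :=
      (Subgroup.mem_normalizer_iff.1 hn₀ g).1 (Subgroup.mem_zpowers g)
    have hle : (P : Subgroup G).map (MulAut.conj n₀).toMonoidHom ≤ cent g := by
      rintro _ ⟨x, hx, rfl⟩
      change n₀ * x * n₀⁻¹ ∈ cent g
      have hgz : g ∈ Subgroup.zpowers (n₀ * g * n₀⁻¹) := by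
        rw [zpowers_eq_of_card Nat.prime_five ((Nat.card_zpowers g).trans hg) hgn fun h1 => by
          rw [mul_inv_eq_one, mul_eq_left] at h1
          rw [h1, orderOf_one] at hg
          exact absurd hg (by norm_num)]
        exact Subgroup.mem_zpowers g
      obtain ⟨i, hi⟩ := hgz
      rw [← hi]
      exact mem_cent.2 (Commute.zpow_right (mem_cent.1 (conj_mem_cent (g := n₀) (hPC hx))) i).eq
    have hp' : IsPGroup 5 ↥((P : Subgroup G).map (MulAut.conj n₀).toMonoidHom) := P.2.map _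
    obtain ⟨c, hcg, hcm⟩ := exists_conj_le (p := 5) (k := 2) hle hp' hPC
      (by rw [S.card_five]; norm_num) (by rw [h300]; norm_num)
    refine ⟨c * n₀, Subgroup.mem_normalizer_fintype fun x hx => ?_, fun he => hne ?_⟩
    · have := hcm _ ⟨x, hx, rfl⟩
      change c * n₀ * x * (c * n₀)⁻¹ ∈ (P : Subgroup G)
      rw [show c * n₀ * x * (c * n₀)⁻¹ = c * (n₀ * x * n₀⁻¹) * c⁻¹ by group]
      exact this
    · obtain ⟨i, hi⟩ := hgn
      have hi' : g ^ i = n₀ * g * n₀⁻¹ := hi
      rw [show c * n₀ * g * (c * n₀)⁻¹ = c * (n₀ * g * n₀⁻¹) * c⁻¹ by group, ← hi',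
        (Commute.zpow_right (mem_cent.1 hcg : Commute c g) i).mul_inv_cancel] at he
      rw [← hi']
      exact he

/-- The normalizer of a Sylow `5`-subgroup containing elements of both types. -/
theorem five_normalizer (P : Sylow 5 G) {g f z' : G} (hg : orderOf g = 5) (hgt : g ∈ cent t)
    (hgP : g ∈ (P : Subgroup G)) (hf : orderOf f = 5) (hz' : IsConj z z') (hfz : f ∈ cent z')
    (hfP : f ∈ (P : Subgroup G)) :
    Nat.card ↥(Subgroup.normalizer ((P : Subgroup G) : Set G)) = 300 := by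
  classical
  haveI : Fact (Nat.Prime 5) := ⟨Nat.prime_five⟩
  obtain ⟨-, h50, n₀, hn₀, hne⟩ := S.five_local P hg hgt hgP
  set N := Subgroup.normalizer ((P : Subgroup G) : Set G) with hN
  let O : G → Set G := fun a => {x | ∃ n ∈ N, n * a * n⁻¹ = x}
  let P' : Set G := {x | x ∈ (P : Subgroup G) ∧ x ≠ 1}
  have hP' : Nat.card P' = 24 := by
    rw [Nat.card_coe_set_eq]
    have : P' = ((P : Subgroup G) : Set G) \ {1} := by ext; exact Iff.rfl
    rw [this, Set.ncard_diff_singleton_of_mem (one_mem _), ← Nat.card_coe_set_eq]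
    exact congrArg (· - 1) (S.card_five P)
  have hOsub : ∀ a ∈ (P : Subgroup G), a ≠ 1 → O a ⊆ P' := by
    rintro a ha ha1 _ ⟨n, hn, rfl⟩
    refine ⟨(Subgroup.mem_normalizer_iff.1 hn a).1 ha, fun h => ha1 ?_⟩
    rwa [mul_inv_eq_one, mul_eq_left] at h
  have hg1 : g ≠ 1 := fun h => by rw [h, orderOf_one] at hg; exact absurd hg (by norm_num)
  have hf1 : f ≠ 1 := fun h => by rw [h, orderOf_one] at hf; exact absurd hf (by norm_num)
  have horb : ∀ a : G, Nat.card N = Nat.card ↥(N ⊓ cent a) * Nat.card (O a) :=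
    fun a => card_conj_orbit N a
  have hgo := horb g
  rw [h50] at hgo
  obtain ⟨n, hn5, hcard⟩ := exists_count (p := 5) (k := 2)
    (le_top : (P : Subgroup G) ≤ ⊤) (by rw [S.card_five]; norm_num)
    (by rw [Subgroup.card_top, S.card]; norm_num)
  rw [Subgroup.card_top, S.card, top_inf_eq, ← hN, hgo] at hcard
  have hdis : ∀ a ∈ O g, ∀ b ∈ O f, a ≠ b := by
    rintro _ ⟨u, hu, rfl⟩ _ ⟨v, hv, rfl⟩ he
    have h1 : v⁻¹ * u * g * (v⁻¹ * u)⁻¹ = f := by
      calc v⁻¹ * u * g * (v⁻¹ * u)⁻¹ = v⁻¹ * (u * g * u⁻¹) * v := by group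
        _ = v⁻¹ * (v * f * v⁻¹) * v := by rw [he]
        _ = f := by group
    exact S.not_both (Or.inr rfl) hf hz' hfz (isConj_conj (v⁻¹ * u) t) (h1 ▸ conj_mem_cent hgt)
  have hpow : ∀ i : ℕ, 0 < i → i < 5 → f ^ i ∈ P' ∧ f ^ i ∉ O g := by
    intro i hi0 hi5
    have h1 : f ^ i ≠ 1 := pow_ne_one_of_lt_orderOf hi0.ne' (by rw [hf]; exact hi5)
    refine ⟨⟨(P : Subgroup G).pow_mem hfP i, h1⟩, ?_⟩
    rintro ⟨u, hu, he⟩
    have ho : orderOf (f ^ i) = 5 := by
      rw [Nat.Coprime.orderOf_pow, hf]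
      rw [hf]
      exact ((Nat.prime_five.coprime_iff_not_dvd).2 (by omega))
    exact S.not_both (Or.inr rfl) ho hz' ((cent z').pow_mem hfz i)
      (isConj_conj u t) (he ▸ conj_mem_cent hgt)
  have hsum : ∀ B : Set G, B ⊆ P' → Disjoint (O g) B → Nat.card (O g) + Nat.card B ≤ 24 := by
    intro B hB hd
    rw [← hP', Nat.card_coe_set_eq, Nat.card_coe_set_eq, Nat.card_coe_set_eq,
      ← Set.ncard_union_eq hd]
    exact Set.ncard_le_ncard (Set.union_subset (hOsub g hgP hg1) hB)
  have hle20 : Nat.card (O g) + 4 ≤ 24 := by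
    let B : Set G := (fun i : Fin 4 => f ^ (i.val + 1)) '' Set.univ
    have hB : Nat.card B = 4 := by
      rw [Nat.card_coe_set_eq, Set.ncard_image_of_injective, Set.ncard_univ, Nat.card_fin]
      intro i j h
      have := (pow_injOn_Iio_orderOf (x := f)) (by simp only [Set.mem_Iio, hf]; omega)
        (by simp only [Set.mem_Iio, hf]; omega) h
      ext
      omega
    have := hsum B (by rintro _ ⟨i, -, rfl⟩; exact (hpow _ (by omega) (by omega)).1)
      (Set.disjoint_right.2 (by rintro _ ⟨i, -, rfl⟩; exact (hpow _ (by omega) (by omega)).2))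
    rwa [hB] at this
  have hm2 : 2 ≤ Nat.card (O g) := by
    rw [Nat.card_coe_set_eq]
    refine (Set.ncard_pair hne).symm.le.trans (Set.ncard_le_ncard ?_)
    rintro x (rfl | rfl)
    · exact ⟨n₀, hn₀, rfl⟩
    · exact ⟨1, one_mem _, by group⟩
  generalize hm : Nat.card (O g) = m at *
  have hmn : m * n = 12096 := by
    rw [mul_assoc] at hcard
    omega
  have hm5 : m % 5 = 1 := by
    have h := Nat.mul_mod m n 5
    rw [hmn, hn5, mul_one] at h
    omega
  have hcases : m = 6 ∨ m = 16 := by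
    have : m ≠ 11 := by rintro rfl; omega
    omega
  rcases hcases with rfl | rfl
  · exact hgo
  · exfalso
    have hk := hsum (O f) (hOsub f hfP hf1) (Set.disjoint_left.2 fun x hx hx' => hdis x hx x hx' rfl)
    have hfo := horb f
    rw [hgo] at hfo
    have h4 : ¬ 4 ∣ Nat.card ↥(N ⊓ cent f) := by
      obtain ⟨c, rfl⟩ := isConj_iff.1 hz'
      have hf0 : orderOf (c⁻¹ * f * c) = 5 := by
        have := orderOf_conj' c⁻¹ f
        rw [inv_inv] at this
        rw [this, hf]
      have hf0z : c⁻¹ * f * c ∈ cent z := by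
        have := conj_mem_cent (g := c⁻¹) hfz
        simpa [mul_assoc] using this
      obtain ⟨-, -, -, h⟩ := S.two_part_five hf0 hf0z
      intro hd
      refine h ?_
      have h2 := card_cent_conj c (c⁻¹ * f * c)
      rw [show c * (c⁻¹ * f * c) * c⁻¹ = f by group] at h2
      rw [← h2]
      exact hd.trans (Subgroup.card_dvd_of_le inf_le_right)
    have hk8 : Nat.card (O f) ≤ 8 := by omega
    generalize Nat.card (O f) = k at *
    generalize Nat.card ↥(N ⊓ cent f) = a at *
    interval_cases k <;> omega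

/-- The Sylow `5`-subgroups of a group of Hall–Janko type. -/
theorem five_main (P : Sylow 5 G) :
    Subgroup.centralizer ((P : Subgroup G) : Set G) = P ∧ Nat.card P = 25 ∧
    Nat.card (Subgroup.normalizer ((P : Subgroup G) : Set G)) = 300 ∧
    ∃ X Y : Subgroup G, Nat.card X = 5 ∧ Nat.card Y = 5 ∧
      (∀ g : G, X.map (MulAut.conj g).toMonoidHom ≠ Y) ∧
      ∀ W : Subgroup G, Nat.card W = 5 → ∃ g : G,
        W.map (MulAut.conj g).toMonoidHom = X ∨ W.map (MulAut.conj g).toMonoidHom = Y := by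
  classical
  haveI : Fact (Nat.Prime 5) := ⟨Nat.prime_five⟩
  haveI : Fact (Nat.Prime 3) := ⟨Nat.prime_three⟩
  obtain ⟨g₀, hg₀t, hg₀⟩ := S.exists_g
  obtain ⟨c, hgP⟩ := S.exists_conj_sylow_five P (hg₀ ▸ pow_orderOf_eq_one g₀ : g₀ ^ 5 = 1)
  obtain ⟨f₀', hf₀'⟩ := exists_prime_orderOf_dvd_card' (G := cent z) 5
    (by rw [S.card_cent_z]; norm_num)
  have hf₀ : orderOf (f₀' : G) = 5 := by rw [Subgroup.orderOf_coe]; exact hf₀'
  obtain ⟨c', hfP⟩ := S.exists_conj_sylow_five P (hf₀ ▸ pow_orderOf_eq_one _ : (f₀' : G) ^ 5 = 1)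
  have S' := S.conj_t c
  have hgt : c * g₀ * c⁻¹ ∈ cent (c * t * c⁻¹) := conj_mem_cent hg₀t
  have hg : orderOf (c * g₀ * c⁻¹) = 5 := (orderOf_conj' c g₀).trans hg₀
  have hfz : c' * f₀' * c'⁻¹ ∈ cent (c' * z * c'⁻¹) := conj_mem_cent f₀'.2
  have hf : orderOf (c' * f₀' * c'⁻¹) = 5 := (orderOf_conj' c' _).trans hf₀
  set g := c * g₀ * c⁻¹
  set f := c' * f₀' * c'⁻¹
  obtain ⟨hC, -, -⟩ := S'.five_local P hg hgt hgP
  have hN := S'.five_normalizer P hg hgt hgP hf (isConj_conj c' z) hfz hfP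
  set N := Subgroup.normalizer ((P : Subgroup G) : Set G)
  have hfix : ∀ x ∈ N, orderOf x = 3 → ∀ a ∈ (P : Subgroup G), orderOf a = 5 →
      x * a * x⁻¹ ∉ Subgroup.zpowers a := by
    intro x hxN hx a ha hPa hmem
    have ha1 : a ≠ 1 := fun h => by rw [h, orderOf_one] at hPa; exact absurd hPa (by norm_num)
    rw [mem_zpowers_iff_mem_range_orderOf, hPa, Finset.mem_image] at hmem
    obtain ⟨i, hi, hie⟩ := hmem
    rw [Finset.mem_range] at hi
    have hstep : ∀ j : ℕ, x * a ^ j * x⁻¹ = a ^ (i * j) := fun j => by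
      rw [pow_mul, hie, conj_pow]
    have h3 : a ^ (i * (i * i)) = a := by
      rw [← hstep, ← hstep, hie]
      calc x * (x * (x * a * x⁻¹) * x⁻¹) * x⁻¹ = x * x * x * a * (x * x * x)⁻¹ := by group
        _ = a := by rw [← pow_three', ← hx, pow_orderOf_eq_one]; group
    have hmod : i * (i * i) ≡ 1 [MOD 5] := by
      rw [← hPa, ← pow_eq_pow_iff_modEq, h3, pow_one]
    obtain rfl : i = 1 := by interval_cases i <;> revert hmod <;> decide
    have hcomm : a ∈ ((P : Subgroup G) ⊓ cent x : Subgroup G) :=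
      ⟨ha, mem_cent.2 (mul_inv_eq_iff_eq_mul.1 (by simpa using hie.symm)).symm⟩
    have hcmod := set_modEq (p := 3) (hx ▸ pow_orderOf_eq_one x) ((P : Subgroup G) : Set G)
      fun y hy => (Subgroup.mem_normalizer_iff.1 hxN y).1 hy
    have hF : Nat.card {y : G // y ∈ ((P : Subgroup G) : Set G) ∧ y * x = x * y} =
        Nat.card ↥((P : Subgroup G) ⊓ cent x) :=
      Nat.card_congr (Equiv.subtypeEquivRight fun y => by rw [Subgroup.mem_inf, mem_cent]; rfl)
    rw [hF, show Nat.card ((P : Subgroup G) : Set G) = 25 from S.card_five P, Nat.ModEq] at hcmod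
    have hd := Subgroup.card_dvd_of_le (inf_le_left : (P : Subgroup G) ⊓ cent x ≤ P)
    rw [S.card_five P, show 25 = 5 ^ 2 from rfl] at hd
    obtain ⟨k, hk2, hk⟩ := (Nat.dvd_prime_pow Nat.prime_five).1 hd
    rw [hk] at hcmod
    interval_cases k
    · rw [pow_zero] at hk
      rw [Subgroup.card_eq_one] at hk
      rw [hk] at hcomm
      exact ha1 hcomm
    · norm_num at hcmod
    · have hxC : x ∈ (P : Subgroup G) := by
        rw [← hC]
        refine Subgroup.mem_centralizer_iff.2 fun y hy => ?_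
        have hy' : y ∈ (P : Subgroup G) ⊓ cent x := by
          rw [Subgroup.eq_of_le_of_card_ge inf_le_left (by rw [hk, S.card_five]; norm_num)]
          exact hy
        exact mem_cent.1 hy'.2
      have := Subgroup.orderOf_dvd_natCard _ hxC
      rw [hx, S.card_five] at this
      norm_num at this
  obtain ⟨x', hx'⟩ := exists_prime_orderOf_dvd_card' (G := N) 3 (by rw [hN]; norm_num)
  have hx : orderOf (x' : G) = 3 := by rw [Subgroup.orderOf_coe]; exact hx'
  set x : G := (x' : G)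
  have hxN : x ∈ N := x'.2
  let P' : Set G := {y | y ∈ (P : Subgroup G) ∧ y ≠ 1}
  let h : Fin 2 → G := ![g, f]
  have hh : ∀ b, orderOf (h b) = 5 ∧ h b ∈ (P : Subgroup G) := by
    intro b; fin_cases b
    · exact ⟨hg, hgP⟩
    · exact ⟨hf, hfP⟩
  have hordp : ∀ b i, i < 4 → orderOf (h b ^ (i + 1)) = 5 := fun b i hi => by
    rw [Nat.Coprime.orderOf_pow, (hh b).1]
    rw [(hh b).1]
    exact (Nat.prime_five.coprime_iff_not_dvd).2 (by omega)
  let F : Fin 2 × Fin 3 × Fin 4 → P' := fun a =>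
    ⟨x ^ a.2.1.val * h a.1 ^ (a.2.2.val + 1) * (x ^ a.2.1.val)⁻¹,
      (Subgroup.mem_normalizer_iff.1 (N.pow_mem hxN _) _).1 ((P : Subgroup G).pow_mem (hh a.1).2 _),
      fun he => by
        rw [mul_inv_eq_one, mul_eq_left] at he
        exact pow_ne_one_of_lt_orderOf (Nat.succ_ne_zero _) (by rw [(hh a.1).1]; omega) he⟩
  have hF : Function.Bijective F := by
    refine (Function.Injective.bijective_of_nat_card_le ?_ ?_)
    · rintro ⟨b, j, i⟩ ⟨b', j', i'⟩ he
      have he' : x ^ j.val * h b ^ (i.val + 1) * (x ^ j.val)⁻¹ =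
          x ^ j'.val * h b' ^ (i'.val + 1) * (x ^ j'.val)⁻¹ := congrArg Subtype.val he
      set u := (x ^ j'.val)⁻¹ * x ^ j.val with hu
      have he2 : u * h b ^ (i.val + 1) * u⁻¹ = h b' ^ (i'.val + 1) := by
        rw [hu, mul_inv_rev, inv_inv]
        calc _ = (x ^ j'.val)⁻¹ * (x ^ j.val * h b ^ (i.val + 1) * (x ^ j.val)⁻¹) * x ^ j'.val := by
              group
          _ = _ := by rw [he']; group
      have hb : b = b' := by
        by_contra hne
        have hord := hordp
        fin_cases b <;> fin_cases b' <;> simp [h] at hne he2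
        · exact S'.not_both (Or.inr rfl) (hord 1 _ i'.isLt) (isConj_conj c' z)
            ((cent _).pow_mem hfz _) (isConj_conj u _)
            (by simp only [h, Matrix.cons_val_one, Matrix.cons_val_zero]; exact he2 ▸
              conj_mem_cent ((cent _).pow_mem hgt _))
        · exact S'.not_both (Or.inr rfl) (hord 0 _ i'.isLt)
            ((isConj_conj c' z).trans (isConj_conj u _))
            (by simp only [h, Matrix.cons_val_zero]; exact he2 ▸ conj_mem_cent ((cent _).pow_mem hfz _))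
            (IsConj.refl _) ((cent _).pow_mem hgt _)
      subst hb
      have hj : j = j' := by
        by_contra hne
        have hu3 : u ^ 3 = 1 := by
          rw [hu, (((Commute.refl x).pow_pow j'.val j.val).inv_left).mul_pow, inv_pow, ← pow_mul,
            ← pow_mul, mul_comm j'.val, mul_comm j.val, pow_mul, pow_mul,
            show x ^ 3 = 1 from hx ▸ pow_orderOf_eq_one x]
          simp
        have hu1 : u ≠ 1 := fun h1 => by
          rw [hu, inv_mul_eq_one] at h1
          have := (pow_injOn_Iio_orderOf (x := x)) (by simp only [Set.mem_Iio, hx]; omega)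
            (by simp only [Set.mem_Iio, hx]; omega) h1
          exact hne (Fin.ext this).symm
        refine hfix u (N.mul_mem (N.inv_mem (N.pow_mem hxN _)) (N.pow_mem hxN _))
          (orderOf_eq_prime hu3 hu1) _ ((P : Subgroup G).pow_mem (hh b).2 (i.val + 1))
          (hordp b i.val i.isLt) ?_
        rw [he2, zpowers_eq_of_card Nat.prime_five ((Nat.card_zpowers _).trans (hh b).1)
          (Subgroup.pow_mem _ (Subgroup.mem_zpowers _) _)
          (pow_ne_one_of_lt_orderOf (Nat.succ_ne_zero _) (by rw [(hh b).1]; omega))]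
        exact Subgroup.pow_mem _ (Subgroup.mem_zpowers _) _
      subst hj
      have hi := (pow_injOn_Iio_orderOf (x := h b)) (by simp only [Set.mem_Iio, (hh b).1]; omega)
        (by simp only [Set.mem_Iio, (hh b).1]; omega) (mul_left_cancel (mul_right_cancel he'))
      exact Prod.ext rfl (Prod.ext rfl (Fin.ext (show i.val = i'.val by simpa using hi)))
    · rw [Nat.card_coe_set_eq, show P' = ((P : Subgroup G) : Set G) \ {1} by ext; exact Iff.rfl,
        Set.ncard_diff_singleton_of_mem (one_mem _), ← Nat.card_coe_set_eq,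
        show Nat.card ((P : Subgroup G) : Set G) = 25 from S.card_five P]
      simp
  refine ⟨hC, S.card_five P, hN, Subgroup.zpowers g, Subgroup.zpowers f,
    (Nat.card_zpowers g).trans hg, (Nat.card_zpowers f).trans hf, fun d he => ?_, fun W hW => ?_⟩
  · have h1 : d * g * d⁻¹ ∈ Subgroup.zpowers f := he ▸ ⟨g, Subgroup.mem_zpowers g, rfl⟩
    exact S'.not_both (Or.inr rfl) ((orderOf_conj' d g).trans hg) (isConj_conj c' z)
      (Subgroup.zpowers_le.2 hfz h1) (isConj_conj d _) (conj_mem_cent hgt)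
  · obtain ⟨w, hw, hw1⟩ := W.bot_or_exists_ne_one.resolve_left fun hb => by
      rw [hb, Subgroup.card_bot] at hW; omega
    have hWz := zpowers_eq_of_card Nat.prime_five hW hw hw1
    obtain ⟨e, he⟩ := S.exists_conj_sylow_five P
      (show w ^ 5 = 1 from orderOf_dvd_iff_pow_eq_one.1 (hW ▸ Subgroup.orderOf_dvd_natCard _ hw))
    obtain ⟨⟨b, j, i⟩, hy⟩ := hF.2 ⟨e * w * e⁻¹, he, fun h1 => hw1 (by
      rwa [mul_inv_eq_one, mul_eq_left] at h1)⟩
    have hy' : x ^ j.val * h b ^ (i.val + 1) * (x ^ j.val)⁻¹ = e * w * e⁻¹ := congrArg Subtype.val hy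
    refine ⟨(x ^ j.val)⁻¹ * e, ?_⟩
    have himg : W.map (MulAut.conj ((x ^ j.val)⁻¹ * e)).toMonoidHom = Subgroup.zpowers (h b) := by
      rw [← hWz, MonoidHom.map_zpowers]
      have h2 : (MulAut.conj ((x ^ j.val)⁻¹ * e)).toMonoidHom w = h b ^ (i.val + 1) := by
        change (x ^ j.val)⁻¹ * e * w * ((x ^ j.val)⁻¹ * e)⁻¹ = _
        calc _ = (x ^ j.val)⁻¹ * (e * w * e⁻¹) * x ^ j.val := by group
          _ = _ := by rw [← hy']; group
      rw [h2]
      exact zpowers_eq_of_card Nat.prime_five ((Nat.card_zpowers _).trans (hh b).1)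
        (Subgroup.pow_mem _ (Subgroup.mem_zpowers _) _)
        (pow_ne_one_of_lt_orderOf (Nat.succ_ne_zero _) (by rw [(hh b).1]; omega))
    fin_cases b
    · exact Or.inl himg
    · exact Or.inr himg

end Setting

end CfsgLib.InvChar.HJSylow
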