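import Cfsg.Agent.Lib.InvChar.HallJankoSylow.Five

/-!
Fusion of the involutions in the centralizer of an element of order three commuting with `z`.
-/

set_option autoImplicit false
set_option linter.style.haveILetI false
set_option linter.unusedSectionVars false

open Cfsg

namespace CfsgLib.InvChar.HJSylow.Setting

variable {G : Type*} [Group G] [Finite G] {z t : G} {Q : Subgroup G} (S : Setting z t Q)
include S

theorem mem_Qinv_of_involution {x : G} (hx : x ∈ Q) (hx2 : orderOf x = 2) (hxz : x ≠ z) :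
    x ∈ Qinv z Q := by
  refine ⟨hx, ?_, fun h => ?_, hxz⟩
  · rw [← sq, ← hx2, pow_orderOf_eq_one]
  · rw [h, orderOf_one] at hx2
    omega

/-- A noncentral involution of `Q` is conjugate in `Q` to its product with `z`. -/
theorem exists_flip {s : G} (hs : s ∈ Qinv z Q) : ∃ q ∈ Q, q * s * q⁻¹ = z * s := by
  obtain ⟨hsQ, -, hs1, hsz⟩ := hs
  by_contra hno
  push Not at hno
  have hcen : (⟨s, hsQ⟩ : Q) ∈ Subgroup.center Q := by
    refine Subgroup.mem_center_iff.2 fun q => Subtype.ext ?_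
    change (q : G) * s = s * q
    rcases S.commutator_mem q.2 hsQ with h | h
    · exact mul_inv_eq_iff_eq_mul.1 (mul_inv_eq_one.1 h)
    · exact absurd (mul_inv_eq_iff_eq_mul.1 h) (hno q q.2)
  rcases S.center_cases hcen with h | h
  · exact hs1 h
  · exact hsz h

theorem Qinv_conj {c s : G} (hc : c ∈ cent z) (hs : s ∈ Qinv z Q) : c * s * c⁻¹ ∈ Qinv z Q := by
  obtain ⟨hsQ, hss, hs1, hsz⟩ := hs
  refine ⟨S.Q_conj c hc s hsQ, ?_, fun h => hs1 ?_, fun h => hsz ?_⟩
  · rw [show c * s * c⁻¹ * (c * s * c⁻¹) = c * (s * s) * c⁻¹ by group, hss, mul_one, mul_inv_cancel]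
  · rwa [mul_inv_eq_one, mul_eq_left] at h
  · exact mul_left_cancel (((mul_inv_eq_iff_eq_mul.1 h)).trans (mem_cent.1 hc).symm)

/-- `C(z)` is transitive on the noncentral involutions of `Q`. -/
theorem Qinv_transitive {s : G} (hs : s ∈ Qinv z Q) :
    Nat.card ↥(cent z ⊓ cent s) = 192 ∧ ∀ x ∈ Qinv z Q, ∃ c ∈ cent z, c * s * c⁻¹ = x := by
  classical
  haveI : Fact (Nat.Prime 5) := ⟨Nat.prime_five⟩
  haveI : Fact (Nat.Prime 2) := ⟨Nat.prime_two⟩
  let O : Set G := {x | ∃ c ∈ cent z, c * s * c⁻¹ = x}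
  have hsub : O ⊆ Qinv z Q := by
    rintro _ ⟨c, hc, rfl⟩
    exact S.Qinv_conj hc hs
  obtain ⟨f, hfc, hf⟩ := S.exists_five
  have h5 := set_modEq (hf ▸ pow_orderOf_eq_one f : f ^ 5 = 1) O (by
    rintro _ ⟨c, hc, rfl⟩
    exact ⟨f * c, mul_mem hfc hc, by group⟩)
  have he : IsEmpty {x : G // x ∈ O ∧ x * f = f * x} := by
    refine ⟨fun x => ?_⟩
    obtain ⟨hxQ, hxx, hx1, hxz⟩ := hsub x.2.1
    have hm : (x : G) ∈ Q ⊓ cent f := ⟨hxQ, mem_cent.2 x.2.2⟩
    rw [← zpowers_eq_of_card Nat.prime_two (S.card_Q_cent_five hf hfc)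
      ⟨S.z_mem, comm_of_mem_cent hfc⟩ S.z_ne, mem_zpowers_iff_mem_range_orderOf, S.oz] at hm
    simp [Finset.range_add_one, hx1, hxz] at hm
  rw [Nat.card_of_isEmpty (α := {x : G // x ∈ O ∧ x * f = f * x})] at h5
  have hmul : ∀ x ∈ O, z * x ∈ O := by
    intro x hx
    obtain ⟨q, hq, hqx⟩ := S.exists_flip (hsub hx)
    obtain ⟨c, hc, rfl⟩ := hx
    exact ⟨q * c, mul_mem (S.Q_le hq) hc, by rw [← hqx]; group⟩
  have h2 : Nat.card O ≡ Nat.card {x : O // z * (x : G) = x} [MOD 2] := by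
    let F : Equiv.Perm O := Function.Involutive.toPerm (fun x => ⟨z * x, hmul x x.2⟩)
      (fun x => Subtype.ext (by
        change z * (z * (x : G)) = x
        rw [← mul_assoc, S.zz, one_mul]))
    refine (perm_modEq F (Equiv.ext fun x => ?_)).trans
      (congrArg (· % 2) (Nat.card_congr (Equiv.subtypeEquivRight fun x => Subtype.ext_iff)))
    rw [pow_two]
    exact Function.Involutive.toPerm_involutive _ x
  haveI : IsEmpty {x : O // z * (x : G) = x} := ⟨fun x => S.z_ne (mul_eq_right.1 x.2)⟩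
  rw [Nat.card_of_isEmpty (α := {x : O // z * (x : G) = x})] at h2
  have hle : Nat.card O ≤ 10 := by
    rw [← S.card_Qinv, Nat.card_coe_set_eq, Nat.card_coe_set_eq]
    exact Set.ncard_le_ncard hsub
  have hpos : 0 < Nat.card O := by
    haveI : Nonempty O := ⟨⟨s, 1, one_mem _, by group⟩⟩
    exact Nat.card_pos
  have h10 : Nat.card O = 10 := by
    unfold Nat.ModEq at h2 h5
    omega
  refine ⟨?_, fun x hx => ?_⟩
  · have h := card_conj_orbit (cent z) s
    rw [S.card_cent_z] at h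
    have h' : Nat.card {x : G // ∃ n ∈ cent z, n * s * n⁻¹ = x} = 10 := h10
    rw [h'] at h
    omega
  · have heq : O = Qinv z Q := Set.eq_of_subset_of_ncard_le hsub (by
      rw [← Nat.card_coe_set_eq, ← Nat.card_coe_set_eq, S.card_Qinv, h10])
    rw [← heq] at hx
    exact hx

/-- An involution of `C_Q(w)` is conjugate to `z` under `C(w)`. -/
theorem exists_fuse {w s : G} (hw : orderOf w = 3) (hc : w ∈ cent z) (hs : s ∈ Qinv z Q)
    (hsw : s ∈ cent w) : ∃ u ∈ cent w, u * z * u⁻¹ = s := by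
  classical
  haveI : Fact (Nat.Prime 3) := ⟨Nat.prime_three⟩
  obtain ⟨hsQ, hss, hs1, hsz⟩ := hs
  have hs2 : orderOf s = 2 := orderOf_eq_prime (by rw [sq, hss]) hs1
  have hsc : s * z = z * s := mem_cent.1 (S.Q_le hsQ)
  obtain ⟨g, hg⟩ := isConj_iff.1 (S.Q_inv s hsQ hs2)
  set z' := g⁻¹ * z * g with hz'
  have hgz' : g * z' * g⁻¹ = z := by rw [hz']; group
  have hz'2 : orderOf z' = 2 := by
    have := orderOf_conj' g z'
    rw [hgz', S.oz] at this
    exact this.symm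
  have hz'c : z' ∈ cent z := by
    have := conj_mem_cent (g := g⁻¹) (comm_of_mem_cent (mem_cent.2 hsc : s ∈ cent z))
    rw [← hg] at this
    simpa [hz', mul_assoc] using this
  have hz'Q : z' ∈ Q := by
    by_contra hq
    exact S.nc (((isConj_conj g z').trans (hgz' ▸ IsConj.refl _)).symm.trans
      (S.Q_out z' hz'c hz'2 hq).symm)
  have hz'z : z' ≠ z := fun h => hsz (by rw [← hg]; rw [h] at hgz'; exact hgz')
  obtain ⟨hK, htr⟩ := S.Qinv_transitive ⟨hsQ, hss, hs1, hsz⟩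
  obtain ⟨c, hcc, hcz'⟩ := htr z' (S.mem_Qinv_of_involution hz'Q hz'2 hz'z)
  -- an element interchanging `z` and `s`
  set n := g * c with hn
  have hns : n * s * n⁻¹ = z := by rw [hn, ← hgz', ← hcz']; group
  have hnz : n * z * n⁻¹ = s := by
    rw [hn, show g * c * z * (g * c)⁻¹ = g * (c * z * c⁻¹) * g⁻¹ by group, mem_cent.1 hcc,
      mul_inv_cancel_right, hg]
  have hwK : w ∈ cent z ⊓ cent s := ⟨hc, comm_of_mem_cent hsw⟩
  have hnw : n * w * n⁻¹ ∈ cent z ⊓ cent s := by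
    refine ⟨?_, ?_⟩
    · rw [← hns]; exact conj_mem_cent hwK.2
    · rw [← hnz]; exact conj_mem_cent hwK.1
  obtain ⟨k, hk, hkw⟩ := exists_conj_mem (p := 3) (j := 1) (k := 1) hnw
    (by rw [pow_one, conj_pow, ← hw, pow_orderOf_eq_one]; group)
    (Subgroup.zpowers_le.2 hwK) (by rw [Nat.card_zpowers, hw, pow_one]) (by rw [hK]; norm_num)
  obtain ⟨d, hd, hds⟩ := S.exists_noncomm hw hc hsQ hs1 hsz (mem_cent.1 hsw)
  set m := k * n * d with hm
  have hkz : k * z * k⁻¹ = z := by rw [mem_cent.1 hk.1, mul_inv_cancel_right]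
  have hks : k * s * k⁻¹ = s := by rw [mem_cent.1 hk.2, mul_inv_cancel_right]
  have hmz : m * z * m⁻¹ = s := by
    rw [hm, show k * n * d * z * (k * n * d)⁻¹ = k * (n * (d * z * d⁻¹) * n⁻¹) * k⁻¹ by group,
      mem_cent.1 (S.Q_le hd.1), mul_inv_cancel_right, hnz, hks]
  have hms : m * s * m⁻¹ = s * z := by
    rw [hm, show k * n * d * s * (k * n * d)⁻¹ = k * (n * (d * s * d⁻¹) * n⁻¹) * k⁻¹ by group,
      hds, show n * (z * s) * n⁻¹ = n * z * n⁻¹ * (n * s * n⁻¹) by group, hnz, hns,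
      show k * (s * z) * k⁻¹ = k * s * k⁻¹ * (k * z * k⁻¹) by group, hks, hkz]
  have hmzs : m * (s * z) * m⁻¹ = z := by
    rw [show m * (s * z) * m⁻¹ = m * s * m⁻¹ * (m * z * m⁻¹) by group, hms, hmz, hsc, mul_assoc,
      hss, mul_one]
  have hmw : m ∈ Subgroup.normalizer ((Subgroup.zpowers w : Subgroup G) : Set G) := by
    refine mem_normalizer_zpowers ?_
    rw [hm, show k * n * d * w * (k * n * d)⁻¹ = k * (n * (d * w * d⁻¹) * n⁻¹) * k⁻¹ by group,
      mem_cent.1 hd.2, mul_inv_cancel_right]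
    exact hkw
  have hmm : m * m ∈ cent w := by
    refine mem_cent.2 (mul_inv_eq_iff_eq_mul.1 ?_)
    rcases conj_cases_three hw hmw with h | h <;>
      rw [show m * m * w * (m * m)⁻¹ = m * (m * w * m⁻¹) * m⁻¹ by group, h]
    · rw [h]
    · rw [← conj_inv, h, inv_inv]
  refine ⟨m * m * (m * m), mul_mem hmm hmm, ?_⟩
  rw [show m * m * (m * m) * z * (m * m * (m * m))⁻¹ =
    m * (m * (m * (m * z * m⁻¹) * m⁻¹) * m⁻¹) * m⁻¹ by group, hmz, hms, hmzs, hmz]

/-- All involutions centralizing `w` are conjugate to `z` under `C(w)`. -/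
theorem cent_three_involutions {w : G} (hw : orderOf w = 3) (hc : w ∈ cent z) {x : G}
    (hx : orderOf x = 2) (hxw : x ∈ cent w) : ∃ u ∈ cent w, u * z * u⁻¹ = x := by
  haveI : Fact (Nat.Prime 2) := ⟨Nat.prime_two⟩
  obtain ⟨c, hcw, hcm⟩ := exists_conj_mem (p := 2) (j := 1) (k := 3) hxw
    (by rw [pow_one, ← hx, pow_orderOf_eq_one]) (inf_le_right : Q ⊓ cent w ≤ cent w)
    (by rw [S.card_Q_cent_three hw hc]; norm_num) (S.two_part_three hw hc)
  by_cases h : c * x * c⁻¹ = z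
  · exact ⟨c⁻¹, inv_mem hcw, by rw [← h]; group⟩
  obtain ⟨u, hu, hux⟩ := S.exists_fuse hw hc
    (S.mem_Qinv_of_involution hcm.1 ((orderOf_conj' c x).trans hx) h) hcm.2
  exact ⟨c⁻¹ * u, mul_mem (inv_mem hcw) hu, by
    rw [show c⁻¹ * u * z * (c⁻¹ * u)⁻¹ = c⁻¹ * (u * z * u⁻¹) * c by group, hux]; group⟩

end CfsgLib.InvChar.HJSylow.Setting
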