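import Cfsg.Agent.Lib.InvChar.HallJankoSylow.Local
import Cfsg.Agent.S3277

/-!
The centralizer of an element of order three or five commuting with `t`.
-/

set_option autoImplicit false
set_option linter.style.haveILetI false
set_option linter.unusedSectionVars false

open Cfsg

namespace CfsgLib.InvChar.HJSylow

/-- Groups with an elementary abelian four-group all of whose involutions have it as centralizer. -/
theorem klein_cases {H : Type*} [Group H] [Finite H] {e : H} (he : orderOf e = 2)
    (h4 : Nat.card ↥(cent e) = 4) (hexp : ∀ c ∈ cent e, c ^ 2 = 1)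
    (hall : ∀ c ∈ cent e, c ≠ 1 → cent c = cent e) :
    Nat.card H = 4 ∨ Nat.card H = 12 ∨ Nonempty (H ≃* alternatingGroup (Fin 5)) := by
  classical
  haveI : Fact (Nat.Prime 2) := ⟨Nat.prime_two⟩
  have he1 : e ≠ 1 := fun h => by rw [h, orderOf_one] at he; exact absurd he (by norm_num)
  have hEg : IsPGroup 2 ↥(cent e) := IsPGroup.of_card (n := 2) (by rw [h4]; norm_num)
  -- a Sylow subgroup containing the four-group equals it
  obtain ⟨P, hP⟩ := hEg.exists_le_sylow
  have hne : (P : Subgroup H) ≠ ⊥ := fun h => he1 (by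
    have := hP (self_mem_cent e); rwa [h, Subgroup.mem_bot] at this)
  obtain ⟨c, hcP, hc2, hcc⟩ := exists_central_involution P.2 hne
  have hc1 : c ≠ 1 := fun h => by rw [h, orderOf_one] at hc2; exact absurd hc2 (by norm_num)
  have hcE : c ∈ cent e := mem_cent.2 (hcc e (hP (self_mem_cent e)))
  have hPE : (P : Subgroup H) = cent e := le_antisymm
    (fun x hx => hall c hcE hc1 ▸ mem_cent.2 (hcc x hx).symm) hP
  have hP4 : Nat.card (P : Subgroup H) = 4 := by rw [hPE]; exact h4
  have h8 : ¬ 8 ∣ Nat.card H := fun h8 => by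
    refine P.not_dvd_index ?_
    rw [← (P : Subgroup H).card_mul_index, hP4] at h8
    exact (Nat.mul_dvd_mul_iff_left (by norm_num : 0 < 4)).1 h8
  by_cases hnc : Cfsg.HasNormalPComplement 2 H
  · left
    obtain ⟨R, N, hN, hNR⟩ := hnc
    have hR : Nat.card (R : Subgroup H) = 4 := by
      rw [Nat.card_congr (R.equiv P).toEquiv]
      exact hPE ▸ h4
    have hcard := hNR.card_mul_card
    rw [hR] at hcard
    have hodd : ¬ 2 ∣ Nat.card N := fun h2 => h8 (by
      rw [← hcard, mul_comm]
      exact Nat.mul_dvd_mul_left 4 h2)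
    have hfix : ∀ a ∈ cent e, a ≠ 1 → ∀ n ∈ N, a * n * a⁻¹ = n⁻¹ := by
      intro a ha ha1 n hn
      let φ : N →* N :=
        { toFun := fun x => ⟨a * x * a⁻¹, hN.conj_mem x x.2 a⟩
          map_one' := Subtype.ext (by simp)
          map_mul' := fun x y => Subtype.ext (by simp [mul_assoc]) }
      have hff : MonoidHom.FixedPointFree φ := fun x hx => by
        have h1 : a * (x : H) * a⁻¹ = x := congrArg Subtype.val hx
        have hxc : (x : H) ∈ cent e := hall a ha ha1 ▸ mem_cent.2 (mul_inv_eq_iff_eq_mul.1 h1).symm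
        have h2 : orderOf (x : H) ∣ 2 := orderOf_dvd_of_pow_eq_one (hexp _ hxc)
        have h3 : orderOf (x : H) ∣ Nat.card N := Subgroup.orderOf_dvd_natCard N x.2
        have h4' : orderOf (x : H) ∣ Nat.gcd 2 (Nat.card N) := Nat.dvd_gcd h2 h3
        rw [(Nat.prime_two.coprime_iff_not_dvd.2 hodd).gcd_eq_one, Nat.dvd_one,
          orderOf_eq_one_iff] at h4'
        exact Subtype.ext h4'
      have hinv : Function.Involutive φ := fun x => Subtype.ext (by
        change a * (a * (x : H) * a⁻¹) * a⁻¹ = x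
        have haa : a * a = 1 := by rw [← sq]; exact hexp a ha
        rw [show a * (a * (x : H) * a⁻¹) * a⁻¹ = (a * a) * x * (a * a)⁻¹ by group, haa]
        simp)
      exact congrArg Subtype.val (congrFun (hff.coe_eq_inv_of_involutive hinv) ⟨n, hn⟩)
    obtain ⟨b, hbE, hb⟩ : ∃ b ∈ cent e, b ≠ 1 ∧ b ≠ e := by
      by_contra hno
      push Not at hno
      have hle : cent e ≤ Subgroup.zpowers e := fun x hx => by
        by_cases h : x = 1
        · rw [h]; exact one_mem _
        · rw [hno x hx h]; exact Subgroup.mem_zpowers e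
      have := Subgroup.card_le_of_le hle
      rw [h4, Nat.card_zpowers, he] at this
      omega
    have hN1 : N = ⊥ := by
      rw [Subgroup.eq_bot_iff_forall]
      intro n hn
      have h1 := hfix e (self_mem_cent e) he1 n hn
      have h2 := hfix b hbE hb.1 n hn
      have heb : e * b ∈ cent e := mul_mem (self_mem_cent e) hbE
      have heb1 : e * b ≠ 1 := fun h => hb.2 (by
        have hee : e * e = 1 := by rw [← sq]; exact hexp e (self_mem_cent e)
        exact (mul_left_cancel (a := e) (h.trans hee.symm)))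
      have h3 := hfix _ heb heb1 n hn
      rw [show e * b * n * (e * b)⁻¹ = e * (b * n * b⁻¹) * e⁻¹ by group, h2,
        show e * n⁻¹ * e⁻¹ = (e * n * e⁻¹)⁻¹ by group, h1, inv_inv] at h3
      have h4' : n * n = 1 := by
        conv_lhs => arg 2; rw [h3]
        exact mul_inv_cancel n
      have h5 : orderOf n ∣ Nat.gcd 2 (Nat.card N) := Nat.dvd_gcd
        (orderOf_dvd_of_pow_eq_one (by rw [sq]; exact h4')) (Subgroup.orderOf_dvd_natCard N hn)
      rwa [(Nat.prime_two.coprime_iff_not_dvd.2 hodd).gcd_eq_one, Nat.dvd_one,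
        orderOf_eq_one_iff] at h5
    rw [hN1, Subgroup.card_bot, one_mul] at hcard
    exact hcard.symm
  by_cases hne' : ∀ E : Subgroup H, E.Normal → Cfsg.IsElementaryAbelian 2 E →
      Nat.card ↥E ≠ 2 ∧ Nat.card ↥E ≠ 4
  · exact Or.inr (Or.inr (Cfsg.Agent.S3277.result e he h4 hexp hnc hne'))
  push Not at hne'
  obtain ⟨E, hEn, -, hE⟩ := hne'
  by_cases hE2 : Nat.card ↥E = 2
  · left
    haveI : Nontrivial E := Finite.one_lt_card_iff_nontrivial.1 (by omega)
    obtain ⟨⟨v, hv⟩, hv1⟩ := exists_ne (1 : E)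
    have hv1' : v ≠ 1 := fun h => hv1 (Subtype.ext h)
    have hz := zpowers_eq_of_card Nat.prime_two hE2 hv hv1'
    have hcomm : ∀ g : H, g ∈ cent v := fun g => by
      have hm : g * v * g⁻¹ ∈ Subgroup.zpowers v := by rw [hz]; exact hEn.conj_mem v hv g
      have ho : orderOf v = 2 := by rw [← Nat.card_zpowers, hz, hE2]
      rw [mem_zpowers_iff_mem_range_orderOf, ho] at hm
      simp [Finset.range_add_one, hv1'] at hm
      exact mem_cent.2 (mul_inv_eq_iff_eq_mul.1 hm)
    have hve : v ∈ cent e := comm_of_mem_cent (hcomm e)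
    have htop : cent e = ⊤ := by
      rw [← hall v hve hv1', eq_top_iff]
      exact fun g _ => hcomm g
    rw [← h4, htop, Subgroup.card_top]
  · have hE4 : Nat.card ↥E = 4 := hE hE2
    have hEeq : E = cent e := by
      have hle : E ≤ (P : Subgroup H) := by
        have hp : IsPGroup 2 E := IsPGroup.of_card (n := 2) (by rw [hE4]; norm_num)
        exact hp.le_sylow_of_normal P
      rw [hPE] at hle
      exact Subgroup.eq_of_le_of_card_ge hle (by omega)
    have hnorm : (cent e).Normal := hEeq ▸ hEn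
    let T := {x : H // x ∈ cent e ∧ x ≠ 1}
    let ψ : H →* Equiv.Perm T :=
      { toFun := fun g =>
          { toFun := fun x => ⟨g * x * g⁻¹, hnorm.conj_mem _ x.2.1 g, fun h => x.2.2 (by
              rwa [mul_inv_eq_one, mul_eq_left] at h)⟩
            invFun := fun x => ⟨g⁻¹ * x * g, by
              have := hnorm.conj_mem _ x.2.1 g⁻¹
              rwa [inv_inv] at this, fun h => x.2.2 (by
              rwa [mul_assoc, inv_mul_eq_one, eq_comm, mul_eq_right] at h)⟩
            left_inv := fun x => Subtype.ext (by simp [mul_assoc])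
            right_inv := fun x => Subtype.ext (by simp [mul_assoc]) }
        map_one' := Equiv.ext fun x => Subtype.ext (by simp)
        map_mul' := fun g g' => Equiv.ext fun x => Subtype.ext (by simp [mul_assoc]) }
    have hker : ψ.ker ≤ cent e := fun g hg => by
      have := congrArg (fun σ : Equiv.Perm T => ((σ ⟨e, self_mem_cent e, he1⟩ : T) : H))
        (MonoidHom.mem_ker.1 hg)
      change g * e * g⁻¹ = e at this
      exact mem_cent.2 (mul_inv_eq_iff_eq_mul.1 this)
    have hT : Nat.card T = 3 := by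
      haveI := Fintype.ofFinite H
      have h1 : Nat.card {x : ↥(cent e) // x ≠ 1} = 3 := by
        rw [Nat.card_eq_fintype_card, Fintype.card_subtype_compl, Fintype.card_subtype_eq,
          ← Nat.card_eq_fintype_card, h4]
      rw [← h1]
      exact Nat.card_congr
        { toFun := fun x => ⟨⟨x.1, x.2.1⟩, fun h => x.2.2 (congrArg Subtype.val h)⟩
          invFun := fun x => ⟨x.1.1, x.1.2, fun h => x.2 (Subtype.ext h)⟩
          left_inv := fun x => rfl
          right_inv := fun x => rfl }
    have hd1 : ψ.ker.index ∣ 6 := by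
      rw [Subgroup.index_ker]
      have h1 := Subgroup.card_subgroup_dvd_card ψ.range
      rw [Nat.card_perm, hT] at h1
      exact h1
    have hd2 : Nat.card ψ.ker ∣ 4 := h4 ▸ Subgroup.card_dvd_of_le hker
    have hd : Nat.card H ∣ 24 := by
      rw [← ψ.ker.card_mul_index]
      exact (Nat.mul_dvd_mul hd2 hd1)
    have h4d : 4 ∣ Nat.card H := h4 ▸ Subgroup.card_subgroup_dvd_card _
    have hle := Nat.le_of_dvd (by norm_num) hd
    interval_cases (Nat.card H) <;> simp_all

end CfsgLib.InvChar.HJSylow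

namespace CfsgLib.InvChar.HJSylow.Setting

variable {G : Type*} [Group G] [Finite G] {z t : G} {Q : Subgroup G} (S : Setting z t Q)
include S

/-- The centralizer of an element of order three or five commuting with `t`, modulo that
element. -/
theorem t_cases {p : ℕ} (hp : p = 3 ∨ p = 5) {h : G} (hh : orderOf h = p) (hc : h ∈ cent t) :
    Nat.card ↥(cent h) = 4 * p ∨ Nat.card ↥(cent h) = 12 * p ∨
      ∃ φ : ↥(cent h) →* alternatingGroup (Fin 5),
        Function.Surjective φ ∧ ∀ c, φ c = 1 ↔ (c : G) ∈ Subgroup.zpowers h := by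
  have hpp : p.Prime := by rcases hp with rfl | rfl <;> norm_num
  have hN : ((Subgroup.zpowers h).subgroupOf (cent h)).Normal :=
    ⟨fun x hx c => by
      rw [Subgroup.mem_subgroupOf] at hx ⊢
      obtain ⟨i, hi⟩ := hx
      refine ⟨i, ?_⟩
      change h ^ i = c * x * (c : G)⁻¹
      rw [← hi]
      exact ((Commute.zpow_right (mem_cent.1 c.2 : Commute (c : G) h) i).mul_inv_cancel).symm⟩
  set N := (Subgroup.zpowers h).subgroupOf (cent h) with hNdef
  have hNc : Nat.card N = p := by
    rw [Nat.card_congr (Subgroup.subgroupOfEquivOfLe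
      (Subgroup.zpowers_le.2 (self_mem_cent h))).toEquiv, Nat.card_zpowers, hh]
  let π := QuotientGroup.mk' N
  have hπ : ∀ x : cent h, π x = 1 ↔ (x : G) ∈ Subgroup.zpowers h := fun x =>
    (QuotientGroup.eq_one_iff x).trans Subgroup.mem_subgroupOf
  have hodd : Nat.Coprime 2 p := by rcases hp with rfl | rfl <;> norm_num
  have htwo : ∀ x ∈ Subgroup.zpowers h, x ^ 2 = 1 → x = 1 := fun x hx h2 => by
    have h1 : orderOf x ∣ Nat.gcd 2 p := Nat.dvd_gcd (orderOf_dvd_of_pow_eq_one h2)
      (by rw [← hh, ← Nat.card_zpowers h]; exact Subgroup.orderOf_dvd_natCard _ hx)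
    rwa [hodd.gcd_eq_one, Nat.dvd_one, orderOf_eq_one_iff] at h1
  -- the centralizer of the image of an involution of the class of `t`
  have key : ∀ (v : cent h), IsConj t (v : G) → orderOf (π v) = 2 ∧
      Nat.card ↥(cent (π v)) = 4 ∧ (∀ c ∈ cent (π v), c ^ 2 = 1) ∧
      ∀ c : cent h, π c ∈ cent (π v) ↔ (c : G) ∈ cent (v : G) := by
    intro v hv
    obtain ⟨g, hg⟩ := isConj_iff.1 hv
    have hvo : orderOf (v : G) = 2 := by rw [← hg, orderOf_conj', S.ot]
    have hv2 : (v : G) ^ 2 = 1 := hvo ▸ pow_orderOf_eq_one (v : G)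
    have S' : Setting z (v : G) Q := hg ▸ S.conj_t g
    obtain ⟨hK, hKpow, -⟩ := S'.t_cent hp hh (comm_of_mem_cent v.2)
    have hiff : ∀ c : cent h, π c ∈ cent (π v) ↔ (c : G) ∈ cent (v : G) := by
      intro c
      rw [mem_cent, mem_cent, ← map_mul, ← map_mul]
      refine ⟨fun he => ?_, fun he => congrArg π (Subtype.ext he)⟩
      have h1 : π ((v * c)⁻¹ * (c * v)) = 1 := by rw [map_mul, map_inv, he, inv_mul_cancel]
      rw [hπ] at h1
      have hx : ((v : G) * c)⁻¹ * (c * v) ∈ Subgroup.zpowers h := h1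
      obtain ⟨i, hi⟩ := hx
      change h ^ i = ((v : G) * c)⁻¹ * (c * v) at hi
      have hcv : (c : G) * v * (c : G)⁻¹ = v * h ^ i := by
        have e : (c : G) * h ^ i = h ^ i * c :=
          (Commute.zpow_right (mem_cent.1 c.2 : Commute (c : G) h) i).eq
        calc (c : G) * v * (c : G)⁻¹ = (v : G) * c * (((v : G) * c)⁻¹ * (c * v)) * (c : G)⁻¹ := by
              group
          _ = (v : G) * ((c : G) * h ^ i) * (c : G)⁻¹ := by rw [← hi]; group
          _ = (v : G) * h ^ i := by rw [e]; group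
      have h2 : ((v : G) * h ^ i) ^ 2 = 1 := by
        rw [← hcv, conj_pow, hv2, mul_one, mul_inv_cancel]
      rw [(Commute.zpow_right (mem_cent.1 v.2 : Commute (v : G) h) i).mul_pow, hv2, one_mul] at h2
      rw [htwo _ (Subgroup.zpow_mem_zpowers h i) h2, mul_one, mul_inv_eq_iff_eq_mul] at hcv
      exact hcv
    have ho : orderOf (π v) = 2 := by
      refine orderOf_eq_prime (by rw [← map_pow, show v ^ 2 = 1 from Subtype.ext hv2, map_one])
        fun h1 => ?_
      have := htwo _ ((hπ v).1 h1) hv2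
      rw [this, orderOf_one] at hvo
      exact absurd hvo (by norm_num)
    let K := cent (v : G) ⊓ cent h
    let ψ : K →* cent h ⧸ N := π.comp (Subgroup.inclusion inf_le_right)
    have hrange : ψ.range = cent (π v) := by
      ext x
      constructor
      · rintro ⟨k, rfl⟩
        exact (hiff _).2 k.2.1
      · intro hx
        obtain ⟨c, rfl⟩ := QuotientGroup.mk'_surjective N x
        exact ⟨⟨c, (hiff c).1 hx, c.2⟩, rfl⟩
    have hker : Nat.card ψ.ker = p := by
      refine Eq.trans ?_ ((Nat.card_zpowers h).trans hh)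
      have hzK : Subgroup.zpowers h ≤ K :=
        le_inf (Subgroup.zpowers_le.2 (comm_of_mem_cent v.2)) (Subgroup.zpowers_le.2 (self_mem_cent h))
      exact Nat.card_congr
        { toFun := fun x => ⟨((x : K) : G), (hπ _).1 x.2⟩
          invFun := fun x => ⟨⟨x, hzK x.2⟩, (hπ _).2 x.2⟩
          left_inv := fun x => rfl
          right_inv := fun x => rfl }
    have h4 : Nat.card ↥(cent (π v)) = 4 := by
      have h1 := ψ.ker.card_mul_index
      rw [hker, Subgroup.index_ker, hrange, hK, mul_comm 4 p] at h1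
      exact Nat.eq_of_mul_eq_mul_left hpp.pos h1
    refine ⟨ho, h4, ?_, hiff⟩
    intro c hc'
    rw [← hrange] at hc'
    obtain ⟨k, rfl⟩ := hc'
    have h1 : orderOf (ψ k) ∣ Nat.gcd 4 (2 * p) := Nat.dvd_gcd
      (by rw [← h4, ← hrange]; exact Subgroup.orderOf_dvd_natCard _ ⟨k, rfl⟩)
      (orderOf_dvd_of_pow_eq_one (by
        rw [← map_pow, show k ^ (2 * p) = 1 from Subtype.ext (hKpow k k.2), map_one]))
    have h2 : Nat.gcd 4 (2 * p) = 2 := by rcases hp with rfl | rfl <;> rfl
    exact orderOf_dvd_iff_pow_eq_one.1 (h2 ▸ h1)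
  have htv : t ∈ cent h := comm_of_mem_cent hc
  obtain ⟨ho, h4, hexp, hiff⟩ := key ⟨t, htv⟩ (IsConj.refl t)
  have hall : ∀ c ∈ cent (π ⟨t, htv⟩), c ≠ 1 → cent c = cent (π ⟨t, htv⟩) := by
    intro c hc' hc1
    obtain ⟨k, rfl⟩ := QuotientGroup.mk'_surjective N c
    have hkt : (k : G) ∈ cent t := (hiff k).1 hc'
    -- replace `k` by its involution part
    obtain ⟨-, hKpow, hKinv⟩ := S.t_cent hp hh hc
    have hk2 : ((k : G) ^ p) ^ 2 = 1 := by
      rw [← pow_mul, mul_comm]; exact hKpow _ ⟨hkt, k.2⟩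
    have hπk : π (k ^ p) = π k := by
      obtain ⟨m, hm⟩ : ∃ m, p = 2 * m + 1 := by
        rcases hp with rfl | rfl
        · exact ⟨1, rfl⟩
        · exact ⟨2, rfl⟩
      rw [map_pow, hm, pow_succ, pow_mul, hexp _ hc', one_pow, one_mul]
    have hne : orderOf ((k : G) ^ p) = 2 := orderOf_eq_prime hk2 fun h1 => hc1 (by
      change π k = 1
      rw [← hπk, show k ^ p = 1 from Subtype.ext h1, map_one])
    obtain ⟨ho', h4', hexp', -⟩ := key (k ^ p)
      (hKinv _ ⟨(cent t).pow_mem hkt p, (cent h).pow_mem k.2 p⟩ hne)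
    rw [show π k = π (k ^ p) from hπk.symm] at hc' ⊢
    refine (Subgroup.eq_of_le_of_card_ge (fun x hx => ?_) (by rw [h4, h4'])).symm
    refine mem_cent.2 ?_
    -- the four-group is abelian
    have hx2 := hexp x hx
    have hc2 := hexp _ hc'
    have hxc := hexp _ ((cent _).mul_mem hx hc')
    rw [sq] at hx2 hc2 hxc
    calc x * π (k ^ p) = (x * π (k ^ p))⁻¹ := by rw [eq_inv_iff_mul_eq_one, hxc]
      _ = (π (k ^ p))⁻¹ * x⁻¹ := mul_inv_rev _ _
      _ = π (k ^ p) * x := by rw [inv_eq_of_mul_eq_one_right hc2, inv_eq_of_mul_eq_one_right hx2]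
  have hcard : Nat.card ↥(cent h) = Nat.card (cent h ⧸ N) * p := by
    rw [Subgroup.card_eq_card_quotient_mul_card_subgroup N, hNc]
  rcases klein_cases ho h4 hexp hall with h1 | h1 | ⟨⟨e⟩⟩
  · exact Or.inl (by rw [hcard, h1])
  · exact Or.inr (Or.inl (by rw [hcard, h1]))
  · refine Or.inr (Or.inr ⟨e.toMonoidHom.comp π,
      e.surjective.comp (QuotientGroup.mk'_surjective N), fun c => ?_⟩)
    rw [← hπ]
    exact e.map_eq_one_iff

end CfsgLib.InvChar.HJSylow.Setting
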